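import Mathlib

/-!
# The `s`-part of an order (helper622)

* `sp s n = s ^ v_s(n)`; `sp_mul`, `sp_pow`, `sp_le`, `sp_eq_one`
* `sp_pow_sub_one` : for an odd prime `s ∤ q`, `e` the order of `q` modulo `s`:
  the `s`-part of `q ^ k - 1` is that of `(q ^ e - 1) (k / e)` if `e ∣ k`, and 1 otherwise
-/

set_option autoImplicit false

namespace Cfsg.Agent.H622.KW

/-- the `s`-part -/
def sp (s n : ℕ) : ℕ := s ^ n.factorization s

theorem sp_mul {s a b : ℕ} (ha : a ≠ 0) (hb : b ≠ 0) : sp s (a * b) = sp s a * sp s b := by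
  unfold sp
  rw [Nat.factorization_mul ha hb, Finsupp.add_apply, pow_add]

theorem sp_pow (s a k : ℕ) : sp s (a ^ k) = sp s a ^ k := by
  unfold sp
  rw [Nat.factorization_pow, Finsupp.smul_apply, smul_eq_mul, mul_comm, pow_mul]

theorem sp_dvd (s n : ℕ) : sp s n ∣ n := Nat.ordProj_dvd n s

theorem sp_le {s n : ℕ} (hn : n ≠ 0) : sp s n ≤ n := Nat.le_of_dvd (Nat.pos_of_ne_zero hn) (sp_dvd s n)

theorem sp_eq_one {s n : ℕ} (h : ¬ s ∣ n) : sp s n = 1 := by
  unfold sp
  rw [Nat.factorization_eq_zero_of_not_dvd h, pow_zero]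

theorem sp_pos {s : ℕ} (hs : s.Prime) (n : ℕ) : 0 < sp s n := pow_pos hs.pos _

theorem sp_le_of_not_sq {s n : ℕ} (hs : s.Prime) (hn : n ≠ 0) (h : ¬ s ^ 2 ∣ n) : sp s n ≤ s := by
  unfold sp
  have h1 : n.factorization s ≤ 1 := by
    by_contra hc
    exact h ((hs.pow_dvd_iff_le_factorization hn).2 (by omega))
  calc s ^ n.factorization s ≤ s ^ 1 := Nat.pow_le_pow_right hs.pos h1
    _ = s := pow_one s

theorem sp_self {s : ℕ} (hs : s.Prime) : sp s s = s := by
  unfold sp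
  rw [hs.factorization_self, pow_one]

/-- the `s`-part of `q ^ k - 1` -/
theorem sp_pow_sub_one {s q k : ℕ} (hs : s.Prime) (hs2 : s ≠ 2) (hq : ¬ s ∣ q) (hq2 : 2 ≤ q) (hk : k ≠ 0) :
    sp s (q ^ k - 1) = if orderOf (q : ZMod s) ∣ k then
      sp s (q ^ orderOf (q : ZMod s) - 1) * sp s (k / orderOf (q : ZMod s)) else 1 := by
  have := Fact.mk hs
  have key : ∀ n, s ∣ q ^ n - 1 ↔ orderOf (q : ZMod s) ∣ n := by
    intro n
    rw [orderOf_dvd_iff_pow_eq_one, ← ZMod.natCast_eq_zero_iff, Nat.cast_sub (Nat.one_le_pow _ _ (by omega)),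
      sub_eq_zero]
    push_cast
    rfl
  split_ifs with h
  · obtain ⟨j, hj⟩ := h
    set e := orderOf (q : ZMod s) with he
    have he0 : e ≠ 0 := by
      rintro h0
      rw [h0, zero_mul] at hj
      exact hk hj
    have hj0 : j ≠ 0 := by
      rintro rfl
      rw [mul_zero] at hj
      exact hk hj
    have hkj : k / e = j := by rw [hj, Nat.mul_div_cancel_left _ (Nat.pos_of_ne_zero he0)]
    rw [hkj, hj, pow_mul]
    unfold sp
    rw [← pow_add]
    congr 1
    have h1 : (1 : ℕ) < q ^ e := Nat.one_lt_pow he0 (by omega)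
    have h2 : s ∣ q ^ e - 1 := (key e).2 dvd_rfl
    have h3 : ¬ s ∣ q ^ e := fun h => hq (hs.dvd_of_dvd_pow h)
    have h4 := padicValNat.pow_sub_pow (p := s) (hs.odd_of_ne_two hs2) (x := q ^ e) (y := 1) h1 h2 h3 hj0
    rw [one_pow] at h4
    rw [Nat.factorization_def _ hs, Nat.factorization_def _ hs, Nat.factorization_def _ hs]
    exact h4
  · exact sp_eq_one fun hd => h ((key k).1 hd)

end Cfsg.Agent.H622.KW
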