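import Cfsg.Agent.H622.KW.Iso
import Cfsg.Agent.H622.KW.NumF4
import Cfsg.Agent.H129.CycCardF
import Cfsg.Agent.S1068

/-!
# S4243: the row `²F₄(q)` (helper622)

`q = 2 x ^ 2`, `x = y + 1 = 2 ^ m`
-/

set_option autoImplicit false

namespace Cfsg.Agent.H622.KW

open Subgroup Cfsg Cfsg.Lie Cfsg.Agent.H146.KW
open Cfsg.Agent.H129.CycCard (CycCard card_tF4_plus card_tF4_minus)

universe u

/-- `q² + √(2q³) + q + √(2q) + 1` -/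
def np (x : ℕ) : ℕ := 4 * x ^ 4 + 4 * x ^ 3 + 2 * x ^ 2 + 2 * x + 1

/-- `q² - √(2q³) + q - √(2q) + 1`, `x = y + 1` -/
def nm (y : ℕ) : ℕ := 4 * y ^ 4 + 12 * y ^ 3 + 14 * y ^ 2 + 6 * y + 1

theorem cast_np (x : ℕ) : ((np x : ℕ) : ℤ) = 1 + 2 * (x : ℤ) + 2 * (x : ℤ) ^ 2 + 4 * (x : ℤ) ^ 3 + 4 * (x : ℤ) ^ 4 := by
  unfold np; push_cast; ring

theorem cast_nm (y : ℕ) : ((nm y : ℕ) : ℤ) =
    1 - 2 * ((y + 1 : ℕ) : ℤ) + 2 * ((y + 1 : ℕ) : ℤ) ^ 2 - 4 * ((y + 1 : ℕ) : ℤ) ^ 3 + 4 * ((y + 1 : ℕ) : ℤ) ^ 4 := by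
  unfold nm; push_cast; ring

/-- the order of `²F₄(q)` in factors -/
theorem tf4_factor (y : ℕ) : (2 * (y + 1) ^ 2) ^ 12 * (2 * (y + 1) ^ 2 - 1) * ((2 * (y + 1) ^ 2) ^ 3 + 1) *
      ((2 * (y + 1) ^ 2) ^ 4 - 1) * ((2 * (y + 1) ^ 2) ^ 6 + 1) =
    (2 * (y + 1) ^ 2) ^ 12 * (2 * y ^ 2 + 4 * y + 1) ^ 2 * (2 * y ^ 2 + 4 * y + 3) ^ 2 *
      (2 * y ^ 2 + 6 * y + 5) ^ 2 * (2 * y ^ 2 + 2 * y + 1) ^ 2 *
      (4 * (y + 1) ^ 4 - 2 * (y + 1) ^ 2 + 1) * (np (y + 1) * nm y) := by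
  have e1 : 2 * (y + 1) ^ 2 - 1 = 2 * y ^ 2 + 4 * y + 1 := by
    have : 2 * (y + 1) ^ 2 = 2 * y ^ 2 + 4 * y + 1 + 1 := by ring
    rw [this, Nat.add_sub_cancel]
  have e0 : 4 * (y + 1) ^ 4 - 2 * (y + 1) ^ 2 = 4 * y ^ 4 + 16 * y ^ 3 + 22 * y ^ 2 + 12 * y + 2 := by
    have : 4 * (y + 1) ^ 4 = 4 * y ^ 4 + 16 * y ^ 3 + 22 * y ^ 2 + 12 * y + 2 + 2 * (y + 1) ^ 2 := by ring
    rw [this, Nat.add_sub_cancel]
  have e4 : (2 * (y + 1) ^ 2) ^ 4 - 1 = (2 * y ^ 2 + 4 * y + 1) * (2 * y ^ 2 + 4 * y + 3) *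
      ((2 * y ^ 2 + 6 * y + 5) * (2 * y ^ 2 + 2 * y + 1)) := by
    have : (2 * (y + 1) ^ 2) ^ 4 = (2 * y ^ 2 + 4 * y + 1) * (2 * y ^ 2 + 4 * y + 3) *
      ((2 * y ^ 2 + 6 * y + 5) * (2 * y ^ 2 + 2 * y + 1)) + 1 := by ring
    rw [this, Nat.add_sub_cancel]
  rw [e1, e4, e0]
  unfold np nm
  ring

/-- the `s`-part of the order -/
theorem tf4_bound {y s : ℕ} (hs : s.Prime) (h5 : 5 ≤ s) (hx : ¬ s ∣ y + 1) (hp : ¬ s ∣ np (y + 1))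
    (hm : ¬ s ∣ nm y) :
    sp s ((2 * (y + 1) ^ 2) ^ 12 * (2 * (y + 1) ^ 2 - 1) * ((2 * (y + 1) ^ 2) ^ 3 + 1) *
      ((2 * (y + 1) ^ 2) ^ 4 - 1) * ((2 * (y + 1) ^ 2) ^ 6 + 1)) ≤ (2 * y ^ 2 + 6 * y + 5) ^ 2 := by
  rw [tf4_factor]
  have e0 : 4 * (y + 1) ^ 4 - 2 * (y + 1) ^ 2 = 4 * y ^ 4 + 16 * y ^ 3 + 22 * y ^ 2 + 12 * y + 2 := by
    have : 4 * (y + 1) ^ 4 = 4 * y ^ 4 + 16 * y ^ 3 + 22 * y ^ 2 + 12 * y + 2 + 2 * (y + 1) ^ 2 := by ring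
    rw [this, Nat.add_sub_cancel]
  rw [e0]
  have n2 : ¬ s ∣ 2 := fun h => by have := Nat.le_of_dvd (by norm_num) h; omega
  have n1 : ¬ s ∣ 1 := fun h => by have := Nat.le_of_dvd (by norm_num) h; omega
  have n3 : ¬ s ∣ 3 := fun h => by have := Nat.le_of_dvd (by norm_num) h; omega
  have hq : ¬ s ∣ 2 * (y + 1) ^ 2 := fun h => by
    rcases hs.dvd_mul.1 h with h | h
    · exact n2 h
    · exact hx (hs.dvd_of_dvd_pow h)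
  have hq12 : sp s ((2 * (y + 1) ^ 2) ^ 12) = 1 := sp_eq_one fun h => hq (hs.dvd_of_dvd_pow h)
  have hpm : sp s (np (y + 1) * nm y) = 1 := sp_eq_one fun h => (hs.dvd_mul.1 h).elim hp hm
  have hpm0 : np (y + 1) * nm y ≠ 0 := by unfold np nm; positivity
  rw [sp_mul (by positivity) hpm0, sp_mul (by positivity) (by positivity),
    sp_mul (by positivity) (by positivity), sp_mul (by positivity) (by positivity),
    sp_mul (by positivity) (by positivity), sp_mul (by positivity) (by positivity), hpm, hq12, mul_one, one_mul,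
    sp_pow, sp_pow, sp_pow, sp_pow]
  by_cases hA : s ∣ 2 * y ^ 2 + 4 * y + 1
  · have hB : ¬ s ∣ 2 * y ^ 2 + 4 * y + 3 := not_dvd_of_eq (u := 2 * y ^ 2 + 4 * y + 1) (w := 2) (by ring) hA n2
    have hPM : ¬ s ∣ (2 * y ^ 2 + 6 * y + 5) * (2 * y ^ 2 + 2 * y + 1) :=
      not_dvd_of_eq (u := (2 * y ^ 2 + 4 * y + 1) * (2 * y ^ 2 + 4 * y + 3)) (w := 2) (by ring) (hA.mul_right _) n2
    have hP : ¬ s ∣ 2 * y ^ 2 + 6 * y + 5 := fun h => hPM (h.mul_right _)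
    have hM : ¬ s ∣ 2 * y ^ 2 + 2 * y + 1 := fun h => hPM (h.mul_left _)
    have hE : ¬ s ∣ 4 * y ^ 4 + 16 * y ^ 3 + 22 * y ^ 2 + 12 * y + 2 + 1 :=
      not_dvd_of_eq (u := (2 * y ^ 2 + 4 * y + 1) * (2 * (y + 1) ^ 2)) (w := 1) (by ring) (hA.mul_right _) n1
    rw [sp_eq_one hB, sp_eq_one hP, sp_eq_one hM, sp_eq_one hE, one_pow, mul_one, mul_one, mul_one, mul_one]
    exact pow_mul_le ((sp_le (by positivity)).trans (by omega))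
  rw [sp_eq_one hA, one_pow, one_mul]
  by_cases hB : s ∣ 2 * y ^ 2 + 4 * y + 3
  · have hPM : ¬ s ∣ (2 * y ^ 2 + 6 * y + 5) * (2 * y ^ 2 + 2 * y + 1) :=
      not_dvd_of_eq (u := (2 * y ^ 2 + 4 * y + 3) * (2 * y ^ 2 + 4 * y + 1)) (w := 2) (by ring) (hB.mul_right _) n2
    have hP : ¬ s ∣ 2 * y ^ 2 + 6 * y + 5 := fun h => hPM (h.mul_right _)
    have hM : ¬ s ∣ 2 * y ^ 2 + 2 * y + 1 := fun h => hPM (h.mul_left _)
    have hE : ¬ s ∣ 4 * y ^ 4 + 16 * y ^ 3 + 22 * y ^ 2 + 12 * y + 2 + 1 :=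
      not_dvd_of_eq (u := (2 * y ^ 2 + 4 * y + 3) * (2 * y ^ 2 + 4 * y)) (w := 3) (by ring) (hB.mul_right _) n3
    rw [sp_eq_one hP, sp_eq_one hM, sp_eq_one hE, one_pow, mul_one, mul_one, mul_one]
    exact pow_mul_le ((sp_le (by positivity)).trans (by omega))
  rw [sp_eq_one hB, one_pow, one_mul]
  have hE' : s ∣ (2 * y ^ 2 + 6 * y + 5) * (2 * y ^ 2 + 2 * y + 1) →
      ¬ s ∣ 4 * y ^ 4 + 16 * y ^ 3 + 22 * y ^ 2 + 12 * y + 2 + 1 := fun h h1 => hq ((Nat.dvd_add_right h1).1 (by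
    have : 4 * y ^ 4 + 16 * y ^ 3 + 22 * y ^ 2 + 12 * y + 2 + 1 + 2 * (y + 1) ^ 2 =
      (2 * y ^ 2 + 6 * y + 5) * (2 * y ^ 2 + 2 * y + 1) := by ring
    rwa [this]))
  by_cases hP : s ∣ 2 * y ^ 2 + 6 * y + 5
  · have hM : ¬ s ∣ 2 * y ^ 2 + 2 * y + 1 := fun h => by
      have h4 : s ∣ 2 ^ 2 * (y + 1) := (Nat.dvd_add_right h).1 (by
        have : 2 * y ^ 2 + 2 * y + 1 + 2 ^ 2 * (y + 1) = 2 * y ^ 2 + 6 * y + 5 := by ring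
        rwa [this])
      rcases hs.dvd_mul.1 h4 with h5 | h5
      · exact n2 (hs.dvd_of_dvd_pow h5)
      · exact hx h5
    rw [sp_eq_one hM, sp_eq_one (hE' (hP.mul_right _)), one_pow, mul_one, mul_one]
    exact pow_mul_le (sp_le (by positivity))
  rw [sp_eq_one hP, one_pow, one_mul]
  by_cases hM : s ∣ 2 * y ^ 2 + 2 * y + 1
  · rw [sp_eq_one (hE' (hM.mul_left _)), mul_one]
    exact pow_mul_le ((sp_le (by positivity)).trans (by omega))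
  rw [sp_eq_one hM, one_pow, one_mul]
  refine (sp_le (by positivity)).trans ?_
  have : (2 * y ^ 2 + 6 * y + 5) ^ 2 = 4 * y ^ 4 + 16 * y ^ 3 + 22 * y ^ 2 + 12 * y + 2 + 1 +
    (8 * y ^ 3 + 34 * y ^ 2 + 48 * y + 22) := by ring
  rw [this]
  exact Nat.le_add_right _ _

theorem tf4_big {y : ℕ} (hy : 1 ≤ y) : (2 * y ^ 2 + 6 * y + 5) ^ 2 ≤ np (y + 1) * nm y := by
  obtain ⟨z, rfl⟩ : ∃ z, y = z + 1 := ⟨y - 1, by omega⟩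
  have h1 : 2 * (z + 1) ^ 2 + 6 * (z + 1) + 5 ≤ np (z + 1 + 1) := by
    unfold np
    nlinarith [Nat.zero_le (z ^ 4), Nat.zero_le (z ^ 3), Nat.zero_le (z ^ 2)]
  have h2 : 2 * (z + 1) ^ 2 + 6 * (z + 1) + 5 ≤ nm (z + 1) := by
    unfold nm
    nlinarith [Nat.zero_le (z ^ 4), Nat.zero_le (z ^ 3), Nat.zero_le (z ^ 2)]
  rw [pow_two]
  exact Nat.mul_le_mul h1 h2

/-- **the row `²F₄(q)`** -/
theorem noKW_2F4 {T : Type u} [Group T] [Finite T] [IsSimpleGroup T] (h : Iso2F4 T) : NoKW T := by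
  intro H hsimp hna hne hK _
  obtain ⟨K, _, _, m, hm, hF, ⟨e⟩⟩ := h
  obtain ⟨s, hs, hsH, hs2, h5⟩ := exists_prime hna Nat.prime_two
  have hs5 : 5 ≤ s := by omega
  obtain ⟨y, hy⟩ : ∃ y, 2 ^ m = y + 1 := ⟨2 ^ m - 1, by have := Nat.one_le_two_pow (n := m); omega⟩
  have hy1 : 1 ≤ y := by
    have : 2 ^ 1 ≤ 2 ^ m := Nat.pow_le_pow_right (by norm_num) hm
    omega
  have hsx : ¬ s ∣ y + 1 := by
    rw [← hy]
    intro hd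
    exact hs2 ((Nat.prime_dvd_prime_iff_eq hs Nat.prime_two).1 (hs.dvd_of_dvd_pow hd))
  have hyZ : ((2 : ℤ) ^ m) = ((y + 1 : ℕ) : ℤ) := by rw [← hy]; push_cast; rfl
  have isoP : ∀ t, t.Prime → t ∣ np (y + 1) → Iso T t (np (y + 1)) := by
    intro t ht hd
    have hN : ((np (y + 1) : ℕ) : ℤ) = 1 + 2 * (2 ^ m) + 2 * (2 ^ m) ^ 2 + 4 * (2 ^ m) ^ 3 + 4 * (2 ^ m) ^ 4 := by
      rw [hyZ, cast_np]
    exact (Iso.of_cycCard ht (card_tF4_plus hF hN ht (by rw [← hN]; exact Int.natCast_dvd_natCast.2 hd))).of_mulEquiv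
      e.symm
  have isoM : ∀ t, t.Prime → t ∣ nm y → Iso T t (nm y) := by
    intro t ht hd
    have hN : ((nm y : ℕ) : ℤ) = 1 - 2 * (2 ^ m) + 2 * (2 ^ m) ^ 2 - 4 * (2 ^ m) ^ 3 + 4 * (2 ^ m) ^ 4 := by
      rw [hyZ, cast_nm]
    exact (Iso.of_cycCard ht (card_tF4_minus hF hN ht (by rw [← hN]; exact Int.natCast_dvd_natCast.2 hd))).of_mulEquiv
      e.symm
  have hp : ¬ s ∣ np (y + 1) := fun hd => (isoP s hs hd).not_dvd hs hK hne hsH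
  have hmm : ¬ s ∣ nm y := fun hd => (isoM s hs hd).not_dvd hs hK hne hsH
  have hT : Nat.card T = (2 * (y + 1) ^ 2) ^ 12 * (2 * (y + 1) ^ 2 - 1) * ((2 * (y + 1) ^ 2) ^ 3 + 1) *
      ((2 * (y + 1) ^ 2) ^ 4 - 1) * ((2 * (y + 1) ^ 2) ^ 6 + 1) := by
    rw [Nat.card_congr e.toEquiv, S1068.result hF]
    have e2 : 2 ^ (2 * m + 1) = 2 * (y + 1) ^ 2 := by rw [← hy]; ring
    rw [e2]
  have hN : np (y + 1) * nm y ∣ Nat.card T := by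
    rw [hT, tf4_factor]
    exact dvd_mul_left _ _
  have key := lt_sylow hK hne hs hsH hN (fun t ht htN => by
    rcases ht.dvd_mul.1 htN with hd | hd
    · exact ⟨_, isoP t ht hd, hp⟩
    · exact ⟨_, isoM t ht hd, hmm⟩)
  have hb := tf4_bound hs hs5 hsx hp hmm
  rw [← hT] at hb
  exact absurd ((key.trans_le hb).trans_le (tf4_big hy1)) (lt_irrefl _)

end Cfsg.Agent.H622.KW
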