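import Cfsg.Agent.H622.KW.Iso
import Cfsg.Agent.H622.KW.NumF4
import Cfsg.Agent.S1062

/-!
# S4243: the row `F₄(q)` (helper622)
-/

set_option autoImplicit false

namespace Cfsg.Agent.H622.KW

open Subgroup Cfsg Cfsg.Lie Cfsg.Agent.H146.KW
open Cfsg.Agent.H129.CycCard (CycCard card_F4_8 card_F4_12)

universe u

/-- the odd part of `q ^ 4 + 1` -/
theorem exists_half (q : ℕ) : ∃ n, n ∣ q ^ 4 + 1 ∧ ¬ 2 ∣ n ∧ q ^ 4 + 1 ≤ 2 * n := by
  by_cases h : 2 ∣ q ^ 4 + 1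
  · obtain ⟨n, hn⟩ := h
    refine ⟨n, ⟨2, by rw [hn]; ring⟩, ?_, hn.le⟩
    rintro ⟨k, rfl⟩
    have h1 : (q ^ 4 + 1) % 4 = 0 := by rw [hn]; omega
    have h2 : q % 4 = 0 ∨ q % 4 = 1 ∨ q % 4 = 2 ∨ q % 4 = 3 := by omega
    have h3 : q ^ 4 % 4 = 0 ∨ q ^ 4 % 4 = 1 := by
      rcases h2 with h | h | h | h <;> rw [Nat.pow_mod, h] <;> norm_num
    omega
  · exact ⟨q ^ 4 + 1, dvd_rfl, h, by omega⟩

/-- **the row `F₄(q)`** -/
theorem noKW_F4 {T : Type u} [Group T] [Finite T] [IsSimpleGroup T] (h : IsoF4 T) : NoKW T := by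
  intro H hsimp hna hne hK _
  obtain ⟨F, _, _, ⟨e⟩⟩ := h
  obtain ⟨r, hrc⟩ := CharP.exists F
  obtain ⟨n, hr, hn⟩ := FiniteField.card F r
  obtain ⟨s, hs, hsH, hsr, h5⟩ := exists_prime hna hr
  have hs2 : s ≠ 2 := by omega
  obtain ⟨a, ha⟩ : ∃ a, Fintype.card F = a + 1 := ⟨Fintype.card F - 1, by have := Fintype.card_pos (α := F); omega⟩
  have ha1 : 1 ≤ a := by have := Fintype.one_lt_card (α := F); omega
  have hsq : ¬ s ∣ a + 1 := by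
    rw [← ha, hn]
    intro hd
    exact hsr ((Nat.prime_dvd_prime_iff_eq hs hr).1 (hs.dvd_of_dvd_pow hd))
  -- the isolated primes
  have iso8 : ∀ t, t.Prime → t ≠ 2 → t ∣ (a + 1) ^ 4 + 1 → Iso T t ((a + 1) ^ 4 + 1) := by
    intro t ht ht2 hd
    have hm : (((a + 1) ^ 4 + 1 : ℕ) : ℤ) = 1 + ((a + 1 : ℕ) : ℤ) ^ 4 := by push_cast; ring
    exact (Iso.of_cycCard ht (card_F4_8 ha hm ht (by rw [← hm]; exact Int.natCast_dvd_natCast.2 hd) ht2)).of_mulEquiv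
      e.symm
  have iso12 : ∀ t, t.Prime → t ∣ (a + 1) ^ 2 * (a * (a + 2)) + 1 → Iso T t ((a + 1) ^ 2 * (a * (a + 2)) + 1) := by
    intro t ht hd
    have hm : (((a + 1) ^ 2 * (a * (a + 2)) + 1 : ℕ) : ℤ) = 1 - ((a + 1 : ℕ) : ℤ) ^ 2 + ((a + 1 : ℕ) : ℤ) ^ 4 := by
      push_cast; ring
    exact (Iso.of_cycCard ht (card_F4_12 ha hm ht (by rw [← hm]; exact Int.natCast_dvd_natCast.2 hd))).of_mulEquiv
      e.symm
  have h8 : ¬ s ∣ (a + 1) ^ 4 + 1 := fun hd => (iso8 s hs hs2 hd).not_dvd hs hK hne hsH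
  have h12 : ¬ s ∣ (a + 1) ^ 2 * (a * (a + 2)) + 1 := fun hd => (iso12 s hs hd).not_dvd hs hK hne hsH
  obtain ⟨m, hm, hm2, hmle⟩ := exists_half (a + 1)
  -- the order
  have hT : Nat.card T = (a + 1) ^ 24 * ((a + 1) ^ 2 - 1) * ((a + 1) ^ 6 - 1) * ((a + 1) ^ 8 - 1) *
      ((a + 1) ^ 12 - 1) := by
    rw [Nat.card_congr e.toEquiv, S1062.result (F := F) rfl, ha]
  have hN : m * ((a + 1) ^ 2 * (a * (a + 2)) + 1) ∣ Nat.card T := by
    rw [hT, f4_factor]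
    exact mul_dvd_mul (hm.trans (dvd_mul_left _ _)) dvd_rfl
  have key := lt_sylow hK hne hs hsH hN (fun t ht htN => by
    rcases ht.dvd_mul.1 htN with hd | hd
    · exact ⟨_, iso8 t ht (by rintro rfl; exact hm2 hd) (hd.trans hm), h8⟩
    · exact ⟨_, iso12 t ht hd, h12⟩)
  have hb := f4_bound hs hs2 ha1 hsq h8 h12
  rw [← hT] at hb
  have h1 : 2 * (m * ((a + 1) ^ 2 * (a * (a + 2)) + 1)) < 2 * ((if s = 3 then 9 else 1) * (a + 2) ^ 4) :=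
    Nat.mul_lt_mul_of_pos_left (key.trans_le hb) (by norm_num)
  have h2 : ((a + 1) ^ 4 + 1) * ((a + 1) ^ 2 * (a * (a + 2)) + 1) ≤ 2 * (m * ((a + 1) ^ 2 * (a * (a + 2)) + 1)) := by
    rw [← mul_assoc 2 m]
    exact Nat.mul_le_mul_right _ hmle
  by_cases h3 : s = 3
  · rw [if_pos h3] at h1
    have hr5 : 5 ≤ r := by omega
    have ha4 : 4 ≤ a := by
      have : r ≤ a + 1 := by
        rw [← ha, hn]
        exact Nat.le_self_pow n.ne_zero r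
      omega
    exact absurd (lt_of_le_of_lt ((f4_big3 ha4).trans h2) h1) (lt_irrefl _)
  · rw [if_neg h3, one_mul] at h1
    exact absurd (lt_of_le_of_lt ((f4_big ha1).trans h2) h1) (lt_irrefl _)

end Cfsg.Agent.H622.KW
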